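import Cfsg.Agent.H851.SimsForms

/-!
# Reflexive sesquilinear forms: the constant `κ`, orthogonal spaces, averaged Siegel elements

`D : FormData F V`, `X` a finite group of isometries.

* `exists_kappa` : `f u v = κ σ(f v u)`, `σ² = 1`, `κ σ(κ) = 1`;
* `TS D M` : `M` is totally singular; `perp D M`, `finrank_perp`;
* `N u w = ∑_{x ∈ X} (f(·, x u) x w - σ(κ) f(·, x w) x u)`; `el` : the isometry `1 + N`.
-/

set_option autoImplicit false

namespace Cfsg.Agent.H989.Sims

open Cfsg.Agent.H851.Sims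
open scoped commutatorElement

variable {F V : Type} [Field F] [AddCommGroup V] [Module F V] (D : FormData F V)

theorem f_zero_left (v : V) : D.f 0 v = 0 := by
  have h := D.smul_left 0 0 v
  rwa [zero_smul, zero_mul] at h

theorem f_zero_right (v : V) : D.f v 0 = 0 := by
  have h := D.smul_right 0 v 0
  rwa [zero_smul, map_zero, zero_mul] at h

/-- `f(·, v)`. -/
def fL (v : V) : V →ₗ[F] F where
  toFun u := D.f u v
  map_add' a b := D.add_left a b v
  map_smul' a b := D.smul_left a b v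

theorem fL_apply (u v : V) : fL D v u = D.f u v := rfl

/-- `f(v, ·)`. -/
def fR (v : V) : V →+ F where
  toFun u := D.f v u
  map_zero' := f_zero_right D v
  map_add' a b := D.add_right v a b

theorem fR_apply (u v : V) : fR D v u = D.f v u := rfl

theorem f_neg_left (u v : V) : D.f (-u) v = -D.f u v := (fL D v).map_neg u

theorem f_neg_right (u v : V) : D.f u (-v) = -D.f u v := (fR D u).map_neg v

theorem f_sub_left (u v w : V) : D.f (u - v) w = D.f u w - D.f v w := (fL D w).map_sub u v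

theorem f_sub_right (u v w : V) : D.f u (v - w) = D.f u v - D.f u w := (fR D u).map_sub v w

theorem f_sum_left {ι : Type*} (s : Finset ι) (g : ι → V) (v : V) :
    D.f (∑ i ∈ s, g i) v = ∑ i ∈ s, D.f (g i) v := map_sum (fL D v) g s

theorem f_sum_right {ι : Type*} (s : Finset ι) (g : ι → V) (v : V) :
    D.f v (∑ i ∈ s, g i) = ∑ i ∈ s, D.f v (g i) := map_sum (fR D v) g s

theorem f_comm_zero {u v : V} : D.f u v = 0 ↔ D.f v u = 0 := ⟨D.refl u v, D.refl v u⟩

theorem nondeg_right {u : V} (h : ∀ v, D.f v u = 0) : u = 0 := D.nondeg u fun v => D.refl v u (h v)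

theorem Q_zero : D.Q 0 = 0 := by
  have h := D.Q_add 0 0
  rw [add_zero, f_zero_left, map_zero, add_zero] at h
  exact left_eq_add.1 h

/-- A vector separating `w₁` from an independent `w₂`. -/
theorem exists_sep {w₁ w₂ : V} (h : ∀ a : F, w₁ ≠ a • w₂) : ∃ v, D.f v w₁ = 1 ∧ D.f v w₂ = 0 := by
  -- otherwise `f(·, w₁)` vanishes on the kernel of `f(·, w₂)`
  by_contra hcon
  push Not at hcon
  have h1 : ∀ v, D.f v w₂ = 0 → D.f v w₁ = 0 := by
    intro v hv
    by_contra hne
    apply hcon ((D.f v w₁)⁻¹ • v)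
    · rw [D.smul_left, inv_mul_cancel₀ hne]
    · rw [D.smul_left, hv, mul_zero]
  have h2 : LinearMap.ker (fL D w₂) ≤ LinearMap.ker (fL D w₁) := fun v hv => h1 v hv
  -- `f(·, w₁) = c f(·, w₂)`
  by_cases h0 : ∃ v₀, D.f v₀ w₂ = 1
  · obtain ⟨v₀, hv₀⟩ := h0
    have h3 : ∀ v, D.f v w₁ = D.f v w₂ * D.f v₀ w₁ := by
      intro v
      have h4 : D.f (v - D.f v w₂ • v₀) w₂ = 0 := by
        rw [f_sub_left, D.smul_left, hv₀, mul_one, sub_self]
      have h5 := h1 _ h4
      rw [f_sub_left, D.smul_left, sub_eq_zero] at h5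
      exact h5
    -- `σ` may fail to be onto a priori: use reflexivity
    -- `f(w₁, v) = 0` iff `f(w₂, v) * f(v₀, w₁) = 0`
    have h6 : ∀ v, D.f v (w₁ - D.f w₁ v₀ • (D.f w₂ v₀)⁻¹ • w₂) = 0 := by
      intro v
      have hw2 : D.f w₂ v₀ ≠ 0 := fun h => one_ne_zero (hv₀.symm.trans (D.refl _ _ h))
      have h7 : D.f (w₁ - D.f w₁ v₀ • (D.f w₂ v₀)⁻¹ • w₂) v₀ = 0 := by
        rw [f_sub_left, D.smul_left, D.smul_left, inv_mul_cancel₀ hw2, mul_one, sub_self]
      have h8 := D.refl _ _ h7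
      -- `f(·, w₁ - c w₂)` is a multiple of `f(·, w₂)` vanishing at `v₀`
      rw [f_sub_right, D.smul_right, D.smul_right, h3 v]
      rw [f_sub_right, D.smul_right, D.smul_right, hv₀] at h8
      linear_combination D.f v w₂ * h8
    have h7 := nondeg_right D h6
    rw [sub_eq_zero, smul_smul] at h7
    exact h _ h7
  · push Not at h0
    have h3 : w₂ = 0 := by
      apply nondeg_right D
      intro v
      by_contra hne
      apply h0 ((D.f v w₂)⁻¹ • v)
      rw [D.smul_left, inv_mul_cancel₀ hne]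
    have h4 : w₁ = 0 := nondeg_right D fun v => h1 v (by rw [h3, f_zero_right])
    exact h 0 (by rw [h4, zero_smul])

theorem kappa_one {w : V} (hw : w ≠ 0) : ∃ κ : F, ∀ v, D.f w v = κ * D.σ (D.f v w) := by
  obtain ⟨v₀, hv₀⟩ : ∃ v₀, D.f v₀ w = 1 := by
    by_contra hcon
    push Not at hcon
    apply hw
    apply nondeg_right D
    intro v
    by_contra hne
    apply hcon ((D.f v w)⁻¹ • v)
    rw [D.smul_left, inv_mul_cancel₀ hne]
  refine ⟨D.f w v₀, fun v => ?_⟩
  have h4 : D.f (v - D.f v w • v₀) w = 0 := by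
    rw [f_sub_left, D.smul_left, hv₀, mul_one, sub_self]
  have h5 := D.refl _ _ h4
  rw [f_sub_right, D.smul_right, sub_eq_zero] at h5
  rw [h5, mul_comm]

theorem exists_kappa [Module.Finite F V] (h2 : 2 ≤ Module.finrank F V) :
    ∃ κ : F, κ * D.σ κ = 1 ∧ (∀ u v, D.f u v = κ * D.σ (D.f v u)) ∧ ∀ a, D.σ (D.σ a) = a := by
  -- independent vectors have the same constant
  have key : ∀ {w₁ w₂ : V} {κ₁ κ₂ : F}, (∀ a : F, w₁ ≠ a • w₂) → (∀ a : F, w₂ ≠ a • w₁) →
      (∀ v, D.f w₁ v = κ₁ * D.σ (D.f v w₁)) → (∀ v, D.f w₂ v = κ₂ * D.σ (D.f v w₂)) → κ₁ = κ₂ := by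
    intro w₁ w₂ κ₁ κ₂ h12 h21 h1 h2
    have h3 : w₁ + w₂ ≠ 0 := by
      intro h
      apply h12 (-1)
      rw [neg_one_smul]
      exact eq_neg_of_add_eq_zero_left h
    obtain ⟨κ, hκ⟩ := kappa_one D h3
    obtain ⟨v₁, hv1, hv1'⟩ := exists_sep D h12
    obtain ⟨v₂, hv2, hv2'⟩ := exists_sep D h21
    have e1 := hκ v₁
    rw [D.add_left, D.add_right, hv1, hv1', add_zero, map_one, mul_one, h1, h2, hv1, hv1', map_one, map_zero, mul_zero,
      add_zero, mul_one] at e1
    have e2 := hκ v₂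
    rw [D.add_left, D.add_right, hv2, hv2', zero_add, map_one, mul_one, h1, h2, hv2, hv2', map_one, map_zero, mul_zero,
      zero_add, mul_one] at e2
    rw [e1, e2]
  -- every vector has an independent one
  have hind : ∀ {w : V}, w ≠ 0 → ∃ w', (∀ a : F, w ≠ a • w') ∧ ∀ a : F, w' ≠ a • w := by
    intro w hw
    by_contra hcon
    push Not at hcon
    have h3 : (⊤ : Submodule F V) ≤ Submodule.span F {w} := by
      intro w' _
      rw [Submodule.mem_span_singleton]
      by_cases h4 : ∀ a : F, w ≠ a • w'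
      · obtain ⟨a, ha⟩ := hcon w' h4
        exact ⟨a, ha.symm⟩
      · push Not at h4
        obtain ⟨a, ha⟩ := h4
        have ha0 : a ≠ 0 := by
          rintro rfl
          rw [zero_smul] at ha
          exact hw ha
        exact ⟨a⁻¹, by rw [ha, smul_smul, inv_mul_cancel₀ ha0, one_smul]⟩
    have h4 := Submodule.finrank_mono h3
    rw [finrank_top] at h4
    have h5 := finrank_span_singleton (K := F) hw
    omega
  have hnt : Nontrivial V := Module.nontrivial_of_finrank_pos (R := F) (by omega)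
  obtain ⟨w₀, hw₀⟩ := exists_ne (0 : V)
  obtain ⟨κ, hκ⟩ := kappa_one D hw₀
  have hall : ∀ u v, D.f u v = κ * D.σ (D.f v u) := by
    intro u v
    by_cases hu : u = 0
    · rw [hu, f_zero_left, f_zero_right, map_zero, mul_zero]
    obtain ⟨κ', hκ'⟩ := kappa_one D hu
    have : κ' = κ := by
      by_cases h1 : (∀ a : F, u ≠ a • w₀) ∧ ∀ a : F, w₀ ≠ a • u
      · exact key h1.1 h1.2 hκ' hκ
      · obtain ⟨w', hw1, hw2⟩ := hind hw₀
        have hw'0 : w' ≠ 0 := by
          rintro rfl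
          exact hw2 0 (by rw [zero_smul])
        obtain ⟨κ'', hκ''⟩ := kappa_one D hw'0
        have e1 := key hw1 hw2 hκ hκ''
        have h3 : ∃ c : F, c ≠ 0 ∧ u = c • w₀ := by
          by_contra hcon
          push Not at hcon
          apply h1
          constructor
          · intro a ha
            by_cases ha0 : a = 0
            · rw [ha0, zero_smul] at ha
              exact hu ha
            · exact hcon a ha0 ha
          · intro a ha
            have ha0 : a ≠ 0 := by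
              rintro rfl
              rw [zero_smul] at ha
              exact hw₀ ha
            exact hcon a⁻¹ (inv_ne_zero ha0) (by rw [ha, smul_smul, inv_mul_cancel₀ ha0, one_smul])
        obtain ⟨c, hc, rfl⟩ := h3
        have e2 := key (w₁ := c • w₀) (w₂ := w') (κ₁ := κ') (κ₂ := κ'') (by
          intro a ha
          apply hw1 (c⁻¹ * a)
          rw [mul_smul, ← ha, smul_smul, inv_mul_cancel₀ hc, one_smul]) (by
          intro a ha
          exact hw2 (a * c) (by rw [mul_smul]; exact ha)) hκ' hκ''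
        rw [e2, e1]
    rw [hκ', this]
  obtain ⟨v₀, hv₀⟩ : ∃ v₀, D.f v₀ w₀ = 1 := by
    by_contra hcon
    push Not at hcon
    apply hw₀
    apply nondeg_right D
    intro v
    by_contra hne
    apply hcon ((D.f v w₀)⁻¹ • v)
    rw [D.smul_left, inv_mul_cancel₀ hne]
  have h1 := hall v₀ w₀
  have h3 := hall w₀ v₀
  rw [hv₀, map_one, mul_one] at h3
  rw [hv₀, h3] at h1
  refine ⟨κ, h1.symm, hall, fun a => ?_⟩
  have h4 := hall (a • v₀) w₀
  rw [hall w₀ (a • v₀), D.smul_left, hv₀, mul_one, map_mul, ← mul_assoc, ← h1, one_mul] at h4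
  exact h4.symm

/-! ### Totally singular subspaces and orthogonal spaces -/

/-- Totally singular subspaces. -/
def TS (M : Submodule F V) : Prop := (∀ u ∈ M, ∀ v ∈ M, D.f u v = 0) ∧ ∀ v ∈ M, D.Q v = 0

theorem TS.mono {M N : Submodule F V} (h : TS D N) (hMN : M ≤ N) : TS D M :=
  ⟨fun u hu v hv => h.1 u (hMN hu) v (hMN hv), fun v hv => h.2 v (hMN hv)⟩

theorem TS.sup {M N : Submodule F V} (hM : TS D M) (hN : TS D N) (h : ∀ u ∈ M, ∀ v ∈ N, D.f u v = 0) :
    TS D (M ⊔ N) := by
  constructor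
  · intro u hu v hv
    obtain ⟨a, ha, b, hb, rfl⟩ := Submodule.mem_sup.1 hu
    obtain ⟨a', ha', b', hb', rfl⟩ := Submodule.mem_sup.1 hv
    rw [D.add_left, D.add_right, D.add_right, hM.1 a ha a' ha', hN.1 b hb b' hb', h a ha b' hb',
      D.refl _ _ (h a' ha' b hb)]
    simp
  · intro v hv
    obtain ⟨a, ha, b, hb, rfl⟩ := Submodule.mem_sup.1 hv
    rw [D.Q_add, hM.2 a ha, hN.2 b hb, h a ha b hb, map_zero]
    simp

/-- The orthogonal space. -/
def perp (M : Submodule F V) : Submodule F V where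
  carrier := {v | ∀ u ∈ M, D.f v u = 0}
  add_mem' {a b} ha hb u hu := by rw [D.add_left, ha u hu, hb u hu, add_zero]
  zero_mem' u _ := f_zero_left D u
  smul_mem' c a ha u hu := by rw [D.smul_left, ha u hu, mul_zero]

theorem mem_perp {M : Submodule F V} {v : V} : v ∈ perp D M ↔ ∀ u ∈ M, D.f v u = 0 := Iff.rfl

theorem mem_perp' {M : Submodule F V} {v : V} : v ∈ perp D M ↔ ∀ u ∈ M, D.f u v = 0 :=
  ⟨fun h u hu => D.refl _ _ (h u hu), fun h u hu => D.refl _ _ (h u hu)⟩

theorem perp_anti {M N : Submodule F V} (h : M ≤ N) : perp D N ≤ perp D M := fun _ hv u hu => hv u (h hu)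

theorem TS.le_perp {M : Submodule F V} (h : TS D M) : M ≤ perp D M := fun v hv u hu => h.1 v hv u hu

theorem finrank_le_perp [Module.Finite F V] (M : Submodule F V) :
    Module.finrank F V ≤ Module.finrank F (perp D M) + Module.finrank F M := by
  let b := Module.finBasis F M
  let g : V →ₗ[F] (Fin (Module.finrank F M) → F) := LinearMap.pi fun i => fL D (b i : V)
  have hker : LinearMap.ker g ≤ perp D M := by
    intro v hv u hu
    have h1 : ∀ i, D.f v (b i : V) = 0 := fun i => congrFun (LinearMap.mem_ker.1 hv) i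
    have h2 := b.sum_repr ⟨u, hu⟩
    have h3 : u = ∑ i, (b.repr ⟨u, hu⟩ i) • (b i : V) := by
      have := congrArg Subtype.val h2
      rw [Submodule.coe_sum] at this
      exact this.symm
    rw [h3, f_sum_right]
    exact Finset.sum_eq_zero fun i _ => by rw [D.smul_right, h1, mul_zero]
  have h1 := g.finrank_range_add_finrank_ker
  have h2 : Module.finrank F (LinearMap.range g) ≤ Module.finrank F M := by
    have := Submodule.finrank_le (LinearMap.range g)
    rwa [Module.finrank_fintype_fun_eq_card, Fintype.card_fin] at this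
  have h3 := Submodule.finrank_mono hker
  omega

theorem perp_add_finrank_le [Finite F] [Module.Finite F V] (M : Submodule F V) :
    Module.finrank F (perp D M) + Module.finrank F M ≤ Module.finrank F V := by
  have hfV : Finite V := Module.finite_of_finite F
  -- `M` embeds in the dual of `V / M^⊥`
  let g : M → Module.Dual F (V ⧸ perp D M) := fun u =>
    (perp D M).liftQ (fL D (u : V)) (fun v hv => hv u u.2)
  have hg : Function.Injective g := by
    intro u u' h
    have h1 : ∀ v, D.f v (u : V) = D.f v (u' : V) := by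
      intro v
      have := LinearMap.congr_fun h ((perp D M).mkQ v)
      exact this
    apply Subtype.ext
    rw [← sub_eq_zero]
    apply nondeg_right D
    intro v
    rw [f_sub_right, h1, sub_self]
  have hfd : Finite (Module.Dual F (V ⧸ perp D M)) := Module.finite_of_finite F
  have h1 := Nat.card_le_card_of_injective g hg
  rw [Module.natCard_eq_pow_finrank (K := F) (V := M),
    Module.natCard_eq_pow_finrank (K := F) (V := Module.Dual F (V ⧸ perp D M)), Subspace.dual_finrank_eq] at h1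
  have h2 := (Nat.pow_le_pow_iff_right (Finite.one_lt_card (α := F))).1 h1
  have h3 := (perp D M).finrank_quotient_add_finrank
  omega

theorem finrank_perp [Finite F] [Module.Finite F V] (M : Submodule F V) :
    Module.finrank F (perp D M) + Module.finrank F M = Module.finrank F V :=
  le_antisymm (perp_add_finrank_le D M) (finrank_le_perp D M)

/-! ### Averaged Siegel elements -/

section El

variable {D} {κ : F} {X : Subgroup (V ≃ₗ[F] V)} [Fintype X]

variable (D κ X) in
/-- The operator `∑ₓ f(·, x u) x w - σ(κ) f(·, x w) x u`. -/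
noncomputable def N (u w : V) : V →ₗ[F] V :=
  ∑ x : X, ((fL D (x.1 u)).smulRight (x.1 w) - (D.σ κ) • (fL D (x.1 w)).smulRight (x.1 u))

theorem N_apply (u w v : V) : N D κ X u w v =
    ∑ x : X, (D.f v (x.1 u) • x.1 w - (D.σ κ) • (D.f v (x.1 w) • x.1 u)) := by
  rw [N, LinearMap.sum_apply]
  rfl

theorem N_add_left (u u' w : V) : N D κ X (u + u') w = N D κ X u w + N D κ X u' w := by
  ext v
  rw [LinearMap.add_apply, N_apply, N_apply, N_apply, ← Finset.sum_add_distrib]
  refine Finset.sum_congr rfl fun x _ => ?_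
  rw [map_add, D.add_right]
  module

theorem N_zero_left (w : V) : N D κ X 0 w = 0 := by
  have h := N_add_left (D := D) (κ := κ) (X := X) 0 0 w
  rw [add_zero] at h
  exact left_eq_add.1 h

theorem N_neg_left (u w : V) : N D κ X (-u) w = -N D κ X u w := by
  have h := N_add_left (D := D) (κ := κ) (X := X) u (-u) w
  rw [add_neg_cancel, N_zero_left] at h
  exact (neg_eq_of_add_eq_zero_right h.symm).symm

/-- Commutation with the elements of `X`. -/
theorem N_comm (hX : X ≤ D.isom) (u w : V) {y : V ≃ₗ[F] V} (hy : y ∈ X) (v : V) :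
    N D κ X u w (y v) = y (N D κ X u w v) := by
  rw [N_apply, N_apply, map_sum]
  refine Fintype.sum_equiv (Equiv.mulLeft (⟨y, hy⟩ : X)⁻¹) _ _ fun x => ?_
  have h1 : ∀ z, D.f (y v) (x.1 z) = D.f v ((y⁻¹ * x.1) z) := by
    intro z
    rw [← (hX hy).1 v]
    congr 1
    exact (y.apply_symm_apply (x.1 z)).symm
  have h2 : ∀ z, x.1 z = y ((y⁻¹ * x.1) z) := fun z => (y.apply_symm_apply (x.1 z)).symm
  rw [map_sub, map_smul, map_smul, map_smul, h1, h1]
  change D.f v ((y⁻¹ * x.1) u) • x.1 w - (D.σ κ) • (D.f v ((y⁻¹ * x.1) w) • x.1 u) =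
    D.f v ((y⁻¹ * x.1) u) • y ((y⁻¹ * x.1) w) - (D.σ κ) • (D.f v ((y⁻¹ * x.1) w) • y ((y⁻¹ * x.1) u))
  rw [← h2, ← h2]

/-- The image is in the sum of the spans. -/
theorem N_mem {M : Submodule F V} (hM : ∀ x ∈ X, ∀ v ∈ M, x v ∈ M) {u w : V} (hu : u ∈ M) (hw : w ∈ M) (v : V) :
    N D κ X u w v ∈ M := by
  rw [N_apply]
  exact M.sum_mem fun x _ => M.sub_mem (M.smul_mem _ (hM x.1 x.2 w hw))
    (M.smul_mem _ (M.smul_mem _ (hM x.1 x.2 u hu)))

/-- Vectors orthogonal to `M` are killed. -/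
theorem N_eq_zero {M : Submodule F V} (hM : ∀ x ∈ X, ∀ v ∈ M, x v ∈ M) {u w : V} (hu : u ∈ M) (hw : w ∈ M) {v : V}
    (hv : v ∈ perp D M) : N D κ X u w v = 0 := by
  rw [N_apply]
  refine Finset.sum_eq_zero fun x _ => ?_
  rw [hv _ (hM x.1 x.2 u hu), hv _ (hM x.1 x.2 w hw), zero_smul, zero_smul, smul_zero, sub_zero]

section skew

variable (hκ : κ * D.σ κ = 1) (hf : ∀ u v, D.f u v = κ * D.σ (D.f v u)) (hσ : ∀ a, D.σ (D.σ a) = a)
include hκ hf hσ

theorem N_skew (u w v v' : V) : D.f (N D κ X u w v) v' + D.f v (N D κ X u w v') = 0 := by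
  rw [N_apply, N_apply, f_sum_left, f_sum_right, ← Finset.sum_add_distrib]
  refine Finset.sum_eq_zero fun x _ => ?_
  rw [f_sub_left, f_sub_right, D.smul_left, D.smul_left, D.smul_left, D.smul_right, D.smul_right, D.smul_right, hσ,
    hf (x.1 w) v', hf (x.1 u) v', ← mul_assoc (D.σ κ)]
  linear_combination (-(D.f v (x.1 w)) * D.σ (D.f v' (x.1 u))) * hκ

omit hκ hσ in
theorem theta_eq (t : F) (h : ∃ v v', D.f v v' = 1) : D.θ t = D.θ (κ * D.σ t) := by
  obtain ⟨v, v', hv⟩ := h
  have h1 := D.Q_add (t • v) v'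
  have h2 := D.Q_add v' (t • v)
  rw [add_comm v', h1] at h2
  have h3 : D.θ (D.f (t • v) v') = D.θ (D.f v' (t • v)) := by
    have : D.Q (t • v) + D.Q v' + D.θ (D.f (t • v) v') = D.Q (t • v) + D.Q v' + D.θ (D.f v' (t • v)) := by
      rw [h2]; ring
    exact add_left_cancel this
  rw [hf v' (t • v), D.smul_left, hv, mul_one] at h3
  exact h3

omit hκ in
theorem theta_N (u w v : V) : D.θ (D.f v (N D κ X u w v)) = 0 := by
  rw [N_apply, f_sum_right, map_sum]
  refine Finset.sum_eq_zero fun x _ => ?_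
  rw [f_sub_right, D.smul_right, D.smul_right, D.smul_right, hσ, map_sub, sub_eq_zero]
  by_cases h0 : D.f v (x.1 w) = 0
  · rw [h0]
    simp only [map_zero, mul_zero, zero_mul]
  have h1 : ∃ v v', D.f v v' = 1 :=
    ⟨(D.f v (x.1 w))⁻¹ • v, x.1 w, by rw [D.smul_left, inv_mul_cancel₀ h0]⟩
  have h2 : κ * D.σ (D.σ (D.f v (x.1 u)) * D.f v (x.1 w)) = κ * (D.σ (D.f v (x.1 w)) * D.f v (x.1 u)) := by
    rw [map_mul D.σ, hσ]
    ring
  rw [theta_eq hf _ h1, h2]

end skew

/-- The isometry `1 + N`. -/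
noncomputable def el {M : Submodule F V} (hM : ∀ x ∈ X, ∀ v ∈ M, x v ∈ M) (hTS : TS D M) {u w : V} (hu : u ∈ M)
    (hw : w ∈ M) : V ≃ₗ[F] V where
  toFun v := v + N D κ X u w v
  invFun v := v - N D κ X u w v
  map_add' a b := by rw [map_add]; abel
  map_smul' c a := by rw [map_smul, smul_add]; rfl
  left_inv v := by
    change v + N D κ X u w v - N D κ X u w (v + N D κ X u w v) = v
    rw [map_add, N_eq_zero hM hu hw (hTS.le_perp D (N_mem hM hu hw v)), add_zero, add_sub_cancel_right]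
  right_inv v := by
    change v - N D κ X u w v + N D κ X u w (v - N D κ X u w v) = v
    rw [map_sub, N_eq_zero hM hu hw (hTS.le_perp D (N_mem hM hu hw v)), sub_zero, sub_add_cancel]

section El2

variable {M : Submodule F V} (hM : ∀ x ∈ X, ∀ v ∈ M, x v ∈ M) (hTS : TS D M) {u w : V} (hu : u ∈ M) (hw : w ∈ M)

theorem el_apply (v : V) : el (κ := κ) hM hTS hu hw v = v + N D κ X u w v := rfl

include hTS in
theorem Q_N_eq_zero (hM : ∀ x ∈ X, ∀ v ∈ M, x v ∈ M) (hu : u ∈ M) (hw : w ∈ M) (v : V) :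
    D.Q (N D κ X u w v) = 0 := hTS.2 _ (N_mem hM hu hw v)

theorem el_mem_isom (hκ : κ * D.σ κ = 1) (hf : ∀ u v, D.f u v = κ * D.σ (D.f v u)) (hσ : ∀ a, D.σ (D.σ a) = a) :
    el (κ := κ) hM hTS hu hw ∈ D.isom := by
  refine ⟨fun v v' => ?_, fun v => ?_⟩
  · rw [el_apply, el_apply, D.add_left, D.add_right, D.add_right,
      hTS.1 _ (N_mem hM hu hw v) _ (N_mem hM hu hw v')]
    linear_combination N_skew (D := D) (X := X) hκ hf hσ u w v v'
  · rw [el_apply, D.Q_add, Q_N_eq_zero (κ := κ) (X := X) hTS hM hu hw, theta_N hf hσ, add_zero, add_zero]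

theorem el_comm (hX : X ≤ D.isom) {y : V ≃ₗ[F] V} (hy : y ∈ X) :
    y * el (κ := κ) hM hTS hu hw = el (κ := κ) hM hTS hu hw * y := by
  ext v
  change y (el (κ := κ) hM hTS hu hw v) = el (κ := κ) hM hTS hu hw (y v)
  rw [el_apply, el_apply, map_add, N_comm hX u w hy]

end El2

/-- Conjugation by an isometry commuting with `X`. -/
theorem conj_N {g : V ≃ₗ[F] V} (hg : g ∈ D.isom) (hgX : ∀ x ∈ X, ∀ v, g (x v) = x (g v)) (u w v : V) :
    g (N D κ X u w v) = N D κ X (g u) (g w) (g v) := by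
  rw [N_apply, N_apply, map_sum]
  refine Finset.sum_congr rfl fun x _ => ?_
  rw [map_sub, map_smul, map_smul, map_smul, ← hgX x.1 x.2, ← hgX x.1 x.2, hg.1, hg.1]

/-- The commutator of an isometry fixing `w` with `1 + N(u, w)`. -/
theorem commutator_el {M : Submodule F V} (hM : ∀ x ∈ X, ∀ v ∈ M, x v ∈ M) (hTS : TS D M) {u w : V} (hu : u ∈ M)
    (hw : w ∈ M) {g : V ≃ₗ[F] V} (hg : g ∈ D.isom) (hgX : ∀ x ∈ X, ∀ v, g (x v) = x (g v)) (hgw : g w = w)
    (hgu : g u - u ∈ M) :
    ⁅g, el (κ := κ) hM hTS hu hw⁆ = el (κ := κ) hM hTS hgu hw := by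
  have hgu' : g u ∈ M := by
    have := M.add_mem hgu hu
    rwa [sub_add_cancel] at this
  apply LinearEquiv.ext
  intro v
  have h1 : ⁅g, el (κ := κ) hM hTS hu hw⁆ v =
      g (el (κ := κ) hM hTS hu hw (g⁻¹ ((el (κ := κ) hM hTS hu hw)⁻¹ v))) := rfl
  have h2 : (el (κ := κ) hM hTS hu hw)⁻¹ v = v - N D κ X u w v := rfl
  have h3 : ∀ y, g (g⁻¹ y) = y := fun y => g.apply_symm_apply y
  rw [h1, h2, el_apply, map_add, conj_N hg hgX, h3, hgw, el_apply, map_sub (N D κ X (g u) w),
    N_eq_zero hM hgu' hw (hTS.le_perp D (N_mem hM hu hw v)), sub_zero, sub_eq_add_neg (g u), N_add_left, N_neg_left,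
    LinearMap.add_apply, LinearMap.neg_apply]
  abel

/-- `s ↦ 1 + N(s, w)` is a homomorphism. -/
noncomputable def elHom {M : Submodule F V} (hM : ∀ x ∈ X, ∀ v ∈ M, x v ∈ M) (hTS : TS D M) {w : V} (hw : w ∈ M) :
    Multiplicative M →* (V ≃ₗ[F] V) where
  toFun s := el (κ := κ) hM hTS s.toAdd.2 hw
  map_one' := by
    apply LinearEquiv.ext
    intro v
    rw [el_apply]
    change v + N D κ X 0 w v = v
    rw [N_zero_left, LinearMap.zero_apply, add_zero]
  map_mul' s t := by
    apply LinearEquiv.ext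
    intro v
    change v + N D κ X (s.toAdd.1 + t.toAdd.1) w v =
      (v + N D κ X t.toAdd.1 w v) + N D κ X s.toAdd.1 w (v + N D κ X t.toAdd.1 w v)
    rw [map_add, N_eq_zero hM s.toAdd.2 hw (hTS.le_perp D (N_mem hM t.toAdd.2 hw v)), N_add_left,
      LinearMap.add_apply]
    abel

theorem elHom_apply {M : Submodule F V} (hM : ∀ x ∈ X, ∀ v ∈ M, x v ∈ M) (hTS : TS D M) {w : V} (hw : w ∈ M)
    (s : M) : elHom (κ := κ) hM hTS hw (Multiplicative.ofAdd s) = el (κ := κ) hM hTS s.2 hw := rfl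

end El

end Cfsg.Agent.H989.Sims
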