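import Cfsg.Agent.H851.SimsForms

/-!
# Invariant subspaces of a finite group of order prime to the characteristic

`X ≤ GL(V)` finite with `|X| ≠ 0` in `F`; `Inv X W` : `W` is `X`-invariant.

* `exists_compl` : an invariant complement of an invariant `A ≤ B` in `B`;
* `exists_iso` : an invariant `M` of large dimension contains many copies of an irreducible `U` (from the statement
  `IsoStmt` of task 444).
-/

set_option autoImplicit false

namespace Cfsg.Agent.H989.Sims

open Cfsg.Agent.H851.Sims

/-- Invariant subspaces. -/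
def Inv {F V : Type} [Field F] [AddCommGroup V] [Module F V] (X : Subgroup (V ≃ₗ[F] V)) (W : Submodule F V) : Prop :=
  ∀ x ∈ X, ∀ w ∈ W, x w ∈ W

/-- The statement of task 444. -/
def IsoStmt : Prop :=
  ∀ {F R V : Type} [Field F] [Ring R] [Algebra F R] [AddCommGroup V] [Module F V] [Module R V]
    [IsScalarTower F R V] [Module.Finite F V] [IsSemisimpleModule R V] (K m : ℕ)
    (_ : ∃ T : Finset R, T.card ≤ K ∧ ∀ x : R, ∃ y ∈ Submodule.span F (T : Set R), ∀ v : V, x • v = y • v)
    (_ : K * K * m < Module.finrank F V),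
    ∃ U : Submodule R V, IsSimpleModule R U ∧ Module.finrank F U ≤ K ∧
      ∃ W : Submodule R V, Nonempty (W ≃ₗ[R] (Fin m → U))

section Abs

variable {F V : Type} [Field F] [AddCommGroup V] [Module F V] {X : Subgroup (V ≃ₗ[F] V)} {R : Type} [Ring R]
  [Algebra F R] [Module R V] [IsScalarTower F R V]

/-- An invariant subspace as a submodule over the group ring. -/
def toR (j : X → R) (hj : ∀ (x : X) (v : V), j x • v = x.1 v) (hs : ∀ r : R, r ∈ Submodule.span F (Set.range j))
    (W : Submodule F V) (hW : Inv X W) : Submodule R V where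
  carrier := W
  add_mem' := W.add_mem
  zero_mem' := W.zero_mem
  smul_mem' r v hv := by
    have hr := hs r
    change r • v ∈ W
    induction hr using Submodule.span_induction with
    | mem r hr =>
      obtain ⟨x, rfl⟩ := hr
      rw [hj]
      exact hW x.1 x.2 v hv
    | zero =>
      rw [zero_smul]
      exact W.zero_mem
    | add f g _ _ hf hg =>
      rw [add_smul]
      exact W.add_mem hf hg
    | smul a f _ hf =>
      rw [smul_assoc]
      exact W.smul_mem _ hf

variable (j : X → R) (hj : ∀ (x : X) (v : V), j x • v = x.1 v) (hs : ∀ r : R, r ∈ Submodule.span F (Set.range j))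

omit [Algebra F R] [IsScalarTower F R V] in
include hj in
theorem act_mem (S : Submodule R V) {x : V ≃ₗ[F] V} (hx : x ∈ X) {w : V} (hw : w ∈ S) : x w ∈ S := by
  have h2 := S.smul_mem (j ⟨x, hx⟩) hw
  rwa [hj] at h2

include hj hs in
theorem exists_compl_abs [IsSemisimpleModule R V] {A B : Submodule F V} (hA : Inv X A) (hB : Inv X B)
    (hAB : A ≤ B) : ∃ C ≤ B, Inv X C ∧ A ⊓ C = ⊥ ∧ A ⊔ C = B := by
  obtain ⟨C, hC⟩ := exists_isCompl (toR j hj hs A hA)
  have h1 : Inv X (C.restrictScalars F) := fun x hx w hw => act_mem j hj C hx hw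
  refine ⟨C.restrictScalars F ⊓ B, inf_le_right, fun x hx w hw => ⟨h1 x hx w hw.1, hB x hx w hw.2⟩, ?_, ?_⟩
  · rw [eq_bot_iff]
    intro v hv
    have h2 : v ∈ toR j hj hs A hA ⊓ C := ⟨hv.1, hv.2.1⟩
    rw [hC.inf_eq_bot] at h2
    exact (Submodule.mem_bot _).2 ((Submodule.mem_bot _).1 h2)
  · apply le_antisymm (sup_le hAB inf_le_right)
    intro v hv
    have h2 : v ∈ toR j hj hs A hA ⊔ C := by rw [hC.sup_eq_top]; exact Submodule.mem_top
    obtain ⟨a, ha, c, hc, rfl⟩ := Submodule.mem_sup.1 h2
    have ha' : a ∈ A := ha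
    exact Submodule.mem_sup.2 ⟨a, ha', c, ⟨hc, by
      have := B.sub_mem hv (hAB ha')
      rwa [add_sub_cancel_left] at this⟩, rfl⟩

include hj hs in
theorem exists_iso_abs (hI : IsoStmt) [IsSemisimpleModule R V] [Module.Finite F V] {K : ℕ} (hK : SmallMod K X)
    {M : Submodule F V} (hM : Inv X M) (m : ℕ) (hdim : K * K * m < Module.finrank F M) :
    ∃ U : Submodule F V, ∃ hU : Inv X U, U ≠ ⊥ ∧ (∀ W ≤ U, Inv X W → W = ⊥ ∨ W = U) ∧
      ∃ e : Fin m → (U →ₗ[F] V), (∀ i u, e i u ∈ M) ∧
        (∀ i, ∀ x (hx : x ∈ X) (u : U), e i ⟨x u.1, hU x hx u.1 u.2⟩ = x (e i u)) ∧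
        ∀ a : Fin m → U, ∑ i, e i (a i) = 0 → a = 0 := by
  classical
  obtain ⟨MR, hMR⟩ : ∃ MR : Submodule R V, MR.restrictScalars F = M := ⟨toR j hj hs M hM, rfl⟩
  obtain ⟨T, hTX, hTK, hT⟩ := hK
  -- the operators
  let T' : Finset R := T.attach.image fun t => j ⟨t.1, hTX t.2⟩
  have hT'K : T'.card ≤ K := by
    refine Finset.card_image_le.trans ?_
    rwa [Finset.card_attach]
  have hop : ∀ r : R, ∃ y ∈ Submodule.span F (T' : Set R), ∀ v : V, r • v = y • v := by
    intro r
    have hr := hs r
    induction hr using Submodule.span_induction with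
    | mem r hr =>
      obtain ⟨x, rfl⟩ := hr
      obtain ⟨t, ht, a, hta⟩ := hT x.1 x.2
      refine ⟨a • j ⟨t, hTX ht⟩, ?_, fun v => ?_⟩
      · apply Submodule.smul_mem
        apply Submodule.subset_span
        exact Finset.mem_coe.2 (Finset.mem_image.2 ⟨⟨t, ht⟩, Finset.mem_attach _ _, rfl⟩)
      · rw [hj, hta, smul_assoc, hj]
    | zero => exact ⟨0, Submodule.zero_mem _, fun v => rfl⟩
    | add f g _ _ hf hg =>
      obtain ⟨y, hy, h1⟩ := hf
      obtain ⟨z, hz, h2⟩ := hg
      exact ⟨y + z, Submodule.add_mem _ hy hz, fun v => by rw [add_smul, add_smul, h1, h2]⟩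
    | smul a f _ hf =>
      obtain ⟨y, hy, h1⟩ := hf
      exact ⟨a • y, Submodule.smul_mem _ a hy, fun v => by rw [smul_assoc, smul_assoc, h1]⟩
  have hfin : Module.Finite F MR := by
    have : Module.Finite F (MR.restrictScalars F) := by rw [hMR]; infer_instance
    exact this
  have hdim' : K * K * m < Module.finrank F MR := by
    have : Module.finrank F (MR.restrictScalars F) = Module.finrank F M := by rw [hMR]
    rw [← this] at hdim
    exact hdim
  obtain ⟨U, hU, -, W, ⟨φ⟩⟩ := hI (F := F) (R := R) (V := MR) K m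
    ⟨T', hT'K, fun r => by
      obtain ⟨y, hy, h1⟩ := hop r
      exact ⟨y, hy, fun v => Subtype.ext (h1 v.1)⟩⟩ hdim'
  -- the image of `U` in `V`
  let UR : Submodule R V := U.map MR.subtype
  let U' : Submodule F V := UR.restrictScalars F
  have hU' : Inv X U' := fun x hx w hw => act_mem j hj UR hx hw
  let ψ : U ≃ₗ[R] UR := Submodule.equivMapOfInjective MR.subtype MR.subtype_injective U
  have hsimp : IsSimpleModule R UR := IsSimpleModule.congr ψ.symm
  refine ⟨U', hU', ?_, ?_, ?_⟩
  · intro h
    have h1 : UR = ⊥ := by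
      rw [eq_bot_iff]
      intro v hv
      have : v ∈ U' := hv
      rw [h] at this
      exact (Submodule.mem_bot _).2 ((Submodule.mem_bot _).1 this)
    have h2 := IsSimpleModule.nontrivial R UR
    rw [h1] at h2
    exact not_subsingleton (⊥ : Submodule R V) inferInstance
  · intro W' hW'U hW'
    have h1 := (isSimpleModule_iff_isAtom.1 hsimp).le_iff.1 (show toR j hj hs W' hW' ≤ UR from hW'U)
    rcases h1 with h1 | h1
    · left
      rw [eq_bot_iff]
      intro v hv
      have : v ∈ toR j hj hs W' hW' := hv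
      rw [h1] at this
      exact (Submodule.mem_bot _).2 ((Submodule.mem_bot _).1 this)
    · right
      apply le_antisymm hW'U
      intro v hv
      have : v ∈ toR j hj hs W' hW' := by rw [h1]; exact hv
      exact this
  · let g : Fin m → (UR →ₗ[R] V) := fun i =>
      MR.subtype ∘ₗ W.subtype ∘ₗ (φ.symm : (Fin m → U) →ₗ[R] W) ∘ₗ LinearMap.single R (fun _ => U) i ∘ₗ
        (ψ.symm : UR →ₗ[R] U)
    refine ⟨fun i => (g i).restrictScalars F, fun i u => ?_, fun i x hx u => ?_, fun a ha => ?_⟩
    · rw [← hMR]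
      exact (W.subtype (φ.symm (LinearMap.single R (fun _ => U) i (ψ.symm u)))).2
    · have h1 : (⟨x u.1, hU' x hx u.1 u.2⟩ : UR) = j ⟨x, hx⟩ • (⟨u.1, u.2⟩ : UR) := by
        apply Subtype.ext
        change x u.1 = j ⟨x, hx⟩ • u.1
        rw [hj]
      exact ((congrArg (g i) h1).trans ((g i).map_smul (j ⟨x, hx⟩) (⟨u.1, u.2⟩ : UR))).trans (hj _ _)
    · have h1 : ((W.subtype (φ.symm (∑ i, LinearMap.single R (fun _ => U) i (ψ.symm (a i)))) : MR) : V) = 0 := by
        rw [map_sum, map_sum, Submodule.coe_sum, ← ha]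
        rfl
      have h2 : φ.symm (∑ i, LinearMap.single R (fun _ => U) i (ψ.symm (a i))) = 0 := by
        apply Subtype.ext
        apply Subtype.ext
        exact h1
      rw [LinearEquiv.map_eq_zero_iff] at h2
      funext i
      have h3 := congrFun h2 i
      rw [Finset.sum_apply] at h3
      have h4 : ∑ j, (LinearMap.single R (fun _ => U) j (ψ.symm (a j))) i = ψ.symm (a i) := by
        rw [Finset.sum_eq_single i]
        · exact Pi.single_eq_same _ _
        · intro j _ hji
          exact Pi.single_eq_of_ne (Ne.symm hji) _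
        · intro h
          exact absurd (Finset.mem_univ i) h
      rw [h4] at h3
      have h5 := (LinearEquiv.map_eq_zero_iff ψ.symm).1 h3
      exact h5

end Abs

section

variable {F V : Type} [Field F] [AddCommGroup V] [Module F V] {X : Subgroup (V ≃ₗ[F] V)}

/-- The representation. -/
def rep (X : Subgroup (V ≃ₗ[F] V)) : X →* Module.End F V where
  toFun x := (x.1 : V →ₗ[F] V)
  map_one' := rfl
  map_mul' _ _ := rfl

/-- The module structure over the group ring. -/
@[reducible]
noncomputable def modR (X : Subgroup (V ≃ₗ[F] V)) : Module (MonoidAlgebra F X) V :=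
  Module.compHom V (MonoidAlgebra.lift F (Module.End F V) X (rep X)).toRingHom

theorem single_smul (x : X) (a : F) (v : V) :
    letI := modR X; (MonoidAlgebra.single x a : MonoidAlgebra F X) • v = a • x.1 v := by
  let _ := modR X
  change (MonoidAlgebra.lift F (Module.End F V) X (rep X)) (MonoidAlgebra.single x a) v = _
  rw [MonoidAlgebra.lift_single]
  rfl

theorem isScalarTower (X : Subgroup (V ≃ₗ[F] V)) : letI := modR X; IsScalarTower F (MonoidAlgebra F X) V := by
  let _ := modR X
  refine ⟨fun c r v => ?_⟩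
  change (MonoidAlgebra.lift F (Module.End F V) X (rep X)) (c • r) v =
    c • (MonoidAlgebra.lift F (Module.End F V) X (rep X)) r v
  rw [map_smul]
  rfl

theorem mem_span_single (r : MonoidAlgebra F X) :
    r ∈ Submodule.span F (Set.range fun x : X => (MonoidAlgebra.single x 1 : MonoidAlgebra F X)) := by
  induction r using MonoidAlgebra.induction_on with
  | of x => exact Submodule.subset_span ⟨x, rfl⟩
  | add f g hf hg => exact Submodule.add_mem _ hf hg
  | smul a f hf => exact Submodule.smul_mem _ a hf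

/-- Invariant complements. -/
theorem exists_compl [Finite X] (h0 : (Nat.card X : F) ≠ 0) {A B : Submodule F V} (hA : Inv X A) (hB : Inv X B)
    (hAB : A ≤ B) : ∃ C ≤ B, Inv X C ∧ A ⊓ C = ⊥ ∧ A ⊔ C = B := by
  let _ := modR X
  have _ := isScalarTower X
  have _ : NeZero (Nat.card X : F) := ⟨h0⟩
  exact exists_compl_abs (fun x : X => (MonoidAlgebra.single x 1 : MonoidAlgebra F X))
    (fun x v => by rw [single_smul, one_smul]) mem_span_single hA hB hAB

theorem exists_iso (hI : IsoStmt) [Finite X] [Module.Finite F V] (h0 : (Nat.card X : F) ≠ 0) {K : ℕ} (hK : SmallMod K X)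
    {M : Submodule F V} (hM : Inv X M) (m : ℕ) (hdim : K * K * m < Module.finrank F M) :
    ∃ U : Submodule F V, ∃ hU : Inv X U, U ≠ ⊥ ∧ (∀ W ≤ U, Inv X W → W = ⊥ ∨ W = U) ∧
      ∃ e : Fin m → (U →ₗ[F] V), (∀ i u, e i u ∈ M) ∧
        (∀ i, ∀ x (hx : x ∈ X) (u : U), e i ⟨x u.1, hU x hx u.1 u.2⟩ = x (e i u)) ∧
        ∀ a : Fin m → U, ∑ i, e i (a i) = 0 → a = 0 := by
  let _ := modR X
  have _ := isScalarTower X
  have _ : NeZero (Nat.card X : F) := ⟨h0⟩
  exact exists_iso_abs (fun x : X => (MonoidAlgebra.single x 1 : MonoidAlgebra F X))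
    (fun x v => by rw [single_smul, one_smul]) mem_span_single hI hK hM m hdim

end

end Cfsg.Agent.H989.Sims
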